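import Cfsg.Agent.H952.F4.Defs

/-!
# S3938, row `F₄(q)`, `q` odd (helper52): linear algebra of a 15-dimensional space
-/

set_option autoImplicit false

namespace Cfsg.Agent.H52.F4Odd

open Module Cfsg.Agent.H952.F4

section gen

variable {F V : Type*} [Field F] [AddCommGroup V] [Module F V]

theorem mem_one {T : Module.End F V} {v : V} : v ∈ es T 1 ↔ T v = v := by
  unfold es
  rw [Module.End.mem_eigenspace_iff, one_smul]

theorem mem_neg {T : Module.End F V} {v : V} : v ∈ es T (-1) ↔ T v = -v := by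
  unfold es
  rw [Module.End.mem_eigenspace_iff, neg_smul, one_smul]

variable [FiniteDimensional F V]

/-- the eigenspaces of an involution -/
theorem split (h2 : (2 : F) ≠ 0) (U : Submodule F V) (T : Module.End F V) (hU : ∀ u ∈ U, T u ∈ U)
    (hT : ∀ u ∈ U, T (T u) = u) :
    finrank F ↥(U ⊓ es T 1) + finrank F ↥(U ⊓ es T (-1)) = finrank F ↥U := by
  have h := Submodule.finrank_sup_add_finrank_inf_eq (U ⊓ es T 1) (U ⊓ es T (-1))
  have h1 : (U ⊓ es T 1) ⊓ (U ⊓ es T (-1)) = ⊥ := by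
    rw [eq_bot_iff]
    rintro v ⟨⟨_, hv1⟩, ⟨_, hv2⟩⟩
    rw [SetLike.mem_coe, mem_one] at hv1
    rw [SetLike.mem_coe, mem_neg, hv1] at hv2
    rw [Submodule.mem_bot]
    have h3 : (2 : F) • v = 0 := by
      rw [two_smul]
      nth_rewrite 1 [hv2]
      exact neg_add_cancel v
    exact (smul_eq_zero.1 h3).resolve_left h2
  have h3 : (U ⊓ es T 1) ⊔ (U ⊓ es T (-1)) = U := by
    refine le_antisymm (sup_le inf_le_left inf_le_left) ?_
    intro v hv
    have e : v = (2 : F)⁻¹ • (v + T v) + (2 : F)⁻¹ • (v - T v) := by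
      rw [← smul_add]
      have : v + T v + (v - T v) = (2 : F) • v := by rw [two_smul]; abel
      rw [this, smul_smul, inv_mul_cancel₀ h2, one_smul]
    rw [e]
    refine Submodule.add_mem_sup ?_ ?_
    · refine ⟨U.smul_mem _ (U.add_mem hv (hU v hv)), ?_⟩
      rw [SetLike.mem_coe, mem_one, map_smul, map_add, hT v hv, add_comm]
    · refine ⟨U.smul_mem _ (U.sub_mem hv (hU v hv)), ?_⟩
      rw [SetLike.mem_coe, mem_neg, map_smul, map_sub, hT v hv, ← smul_neg, neg_sub]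
  rw [h1, h3, finrank_bot, add_zero] at h
  exact h.symm

omit [FiniteDimensional F V] in
/-- the action of an element of prime order `r` on a small subspace is trivial -/
theorem small [Finite F] [FiniteDimensional F V] {r e : ℕ} (hr : r.Prime)
    (he : orderOf ((Nat.card F : ℕ) : ZMod r) = e) (P : Submodule F V) (T : Module.End F V) (hP : ∀ u ∈ P, T u ∈ P)
    (hT : ∀ u ∈ P, (T ^ r) u = u) (hd : finrank F ↥P < e) : ∀ u ∈ P, T u = u := by
  classical
  have hrf : Fact r.Prime := ⟨hr⟩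
  have hfV : Finite V := Module.finite_of_finite F
  have hfP : Fintype ↥P := Fintype.ofFinite _
  let T' : ↥P →ₗ[F] ↥P := T.restrict hP
  have hT' : T' ^ r = 1 := by
    have h1 : ∀ n : ℕ, ∀ u : ↥P, (((T' ^ n) u : ↥P) : V) = (T ^ n) (u : V) := by
      intro n
      induction n with
      | zero => intro u; rfl
      | succ n ih =>
        intro u
        rw [pow_succ', pow_succ', Module.End.mul_apply, Module.End.mul_apply, ← ih u]
        rfl
    ext u
    rw [h1, hT u u.2]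
    rfl
  let f : Function.End ↥P := fun u => T' u
  have hf : f ^ r ^ 1 = 1 := by
    have h1 : ∀ n : ℕ, ∀ u : ↥P, (f ^ n) u = (T' ^ n) u := by
      intro n
      induction n with
      | zero => intro u; rfl
      | succ n ih =>
        intro u
        rw [pow_succ', pow_succ']
        change T' ((f ^ n) u) = T' ((T' ^ n) u)
        rw [ih u]
    funext u
    rw [pow_one, h1, hT']
    rfl
  let C : Submodule F ↥P := es T' 1
  have hfC : Fintype ↥C := Fintype.ofFinite _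
  have hc := Equiv.Perm.card_fixedPoints_modEq (p := r) (n := 1) hf
  have hcC : Fintype.card (Function.fixedPoints f) = Nat.card F ^ finrank F ↥C := by
    have h1 : Nat.card ↥C = Nat.card F ^ finrank F ↥C := Module.natCard_eq_pow_finrank
    rw [← h1, ← Nat.card_eq_fintype_card]
    refine Nat.card_congr (Equiv.subtypeEquivRight fun u => ?_)
    change T' u = u ↔ u ∈ es T' 1
    rw [mem_one]
  have hcP : Fintype.card ↥P = Nat.card F ^ finrank F ↥P := by
    rw [← Nat.card_eq_fintype_card]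
    exact Module.natCard_eq_pow_finrank
  rw [hcC, hcP, ← ZMod.natCast_eq_natCast_iff, Nat.cast_pow, Nat.cast_pow] at hc
  have hle : finrank F ↥C ≤ finrank F ↥P := Submodule.finrank_le C
  have heq : finrank F ↥P = finrank F ↥C :=
    pow_injOn_Iio_orderOf (x := ((Nat.card F : ℕ) : ZMod r)) (by rw [he]; exact hd)
      (by rw [he]; exact lt_of_le_of_lt hle hd) hc
  have hCtop : C = ⊤ := Submodule.eq_top_of_finrank_eq heq.symm
  intro u hu
  have h1 : (⟨u, hu⟩ : ↥P) ∈ C := by rw [hCtop]; trivial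
  have h2 : T' ⟨u, hu⟩ = ⟨u, hu⟩ := mem_one.1 h1
  exact congrArg Subtype.val h2

end gen

section quat

variable {F V G : Type*} [Field F] [Finite F] [AddCommGroup V] [Module F V] [FiniteDimensional F V] [Group G]
  (ρ : Representation F G V)

/-- **The element `g`.** -/
theorem exists_fifteen (h2 : (2 : F) ≠ 0) {j a₁ a₂ b₁ b₂ : G} (ha1 : a₁ * a₁ = j) (ha2 : a₂ * a₂ = j)
    (ha3 : (a₁ * a₂) * (a₁ * a₂) = j) (hb1 : b₁ * b₁ = j) (hb2 : b₂ * b₂ = j) (hb3 : (b₁ * b₂) * (b₁ * b₂) = j)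
    {r : ℕ} (hr : r.Prime) (h6 : orderOf ((Nat.card F : ℕ) : ZMod r) = 6)
    (hc1 : b₁ ∈ Subgroup.closure {y : G | y * a₁ = a₁ * y ∧ y * a₂ = a₂ * y ∧ y ^ r = 1})
    (hc2 : b₂ ∈ Subgroup.closure {y : G | y * a₁ = a₁ * y ∧ y * a₂ = a₂ * y ∧ y ^ r = 1})
    (hj : ev (ρ j) 1 = 15) (htab : ∀ g : G, g * g = j → ev (ρ g) 1 = 7 ∨ ev (ρ g) 1 = 9 ∨ ev (ρ g) 1 = 15) :
    ∃ g : G, g * g = j ∧ ev (ρ g) 1 = 15 := by
  by_contra hcon
  push Not at hcon
  have htab' : ∀ g : G, g * g = j → ev (ρ g) 1 = 7 ∨ ev (ρ g) 1 = 9 := fun g hg => by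
    rcases htab g hg with h | h | h
    · exact Or.inl h
    · exact Or.inr h
    · exact absurd h (hcon g hg)
  have ev_def : ∀ g : G, ev (ρ g) 1 = finrank F ↥(es (ρ g) 1) := fun g => rfl
  set W := es (ρ j) 1 with hW
  set A := ρ a₁ with hA
  set B := ρ a₂ with hB
  -- squares of the elements with `g * g = j` are trivial on `W`
  have hsq : ∀ g : G, g * g = j → ∀ w ∈ W, ρ g (ρ g w) = w := by
    intro g hg w hw
    rw [← Module.End.mul_apply, ← map_mul, hg]
    exact mem_one.1 hw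
  have hinW : ∀ g : G, g * g = j → ∀ w ∈ W, ρ g w ∈ W := by
    intro g hg w hw
    rw [hW, mem_one, ← Module.End.mul_apply, ← map_mul]
    have : j * g = g * j := by rw [← hg, mul_assoc]
    rw [this, map_mul, Module.End.mul_apply, mem_one.1 hw]
  have hleW : ∀ g : G, g * g = j → es (ρ g) 1 ≤ W := by
    intro g hg w hw
    rw [hW, mem_one, ← hg, map_mul, Module.End.mul_apply, mem_one.1 hw, mem_one.1 hw]
  have hAB : ∀ w ∈ W, A (B w) = B (A w) := by
    intro w hw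
    have h1 := hsq (a₁ * a₂) ha3 w hw
    rw [map_mul, Module.End.mul_apply, Module.End.mul_apply] at h1
    change A (B (A (B w))) = w at h1
    have h3 : B (A (B w)) = A w := by
      rw [← hsq a₁ ha1 (B (A (B w))) (hinW a₂ ha2 _ (hinW a₁ ha1 _ (hinW a₂ ha2 _ hw)))]
      change A (A (B (A (B w)))) = A w
      rw [h1]
    rw [← hsq a₂ ha2 (A (B w)) (hinW a₁ ha1 _ (hinW a₂ ha2 _ hw))]
    change B (B (A (B w))) = _
    rw [h3]
  -- the four eigenspaces
  set pp := (W ⊓ es A 1) ⊓ es B 1 with hpp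
  set pm := (W ⊓ es A 1) ⊓ es B (-1) with hpm
  set mp := (W ⊓ es A (-1)) ⊓ es B 1 with hmp
  set mm := (W ⊓ es A (-1)) ⊓ es B (-1) with hmm
  have s1 : finrank F ↥(W ⊓ es A 1) + finrank F ↥(W ⊓ es A (-1)) = finrank F ↥W :=
    split h2 W A (hinW a₁ ha1) (hsq a₁ ha1)
  have s2 : finrank F ↥pp + finrank F ↥pm = finrank F ↥(W ⊓ es A 1) := by
    refine split h2 (W ⊓ es A 1) B ?_ (fun u hu => hsq a₂ ha2 u hu.1)
    intro u hu
    refine ⟨hinW a₂ ha2 u hu.1, ?_⟩
    rw [SetLike.mem_coe, mem_one, hAB u hu.1, mem_one.1 hu.2]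
  have s3 : finrank F ↥mp + finrank F ↥mm = finrank F ↥(W ⊓ es A (-1)) := by
    refine split h2 (W ⊓ es A (-1)) B ?_ (fun u hu => hsq a₂ ha2 u hu.1)
    intro u hu
    refine ⟨hinW a₂ ha2 u hu.1, ?_⟩
    rw [SetLike.mem_coe, mem_neg, hAB u hu.1, mem_neg.1 hu.2, map_neg]
  have s4 : finrank F ↥pp + finrank F ↥mp = finrank F ↥(W ⊓ es B 1) := by
    have := split h2 (W ⊓ es B 1) A (by
      intro u hu
      refine ⟨hinW a₁ ha1 u hu.1, ?_⟩
      rw [SetLike.mem_coe, mem_one, ← hAB u hu.1, mem_one.1 hu.2]) (fun u hu => hsq a₁ ha1 u hu.1)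
    rw [inf_right_comm, inf_right_comm W (es B 1)] at this
    exact this
  have s5 : finrank F ↥pp + finrank F ↥mm = finrank F ↥(W ⊓ es (ρ (a₁ * a₂)) 1) := by
    have h := split h2 (W ⊓ es (ρ (a₁ * a₂)) 1) A (by
      intro u hu
      refine ⟨hinW a₁ ha1 u hu.1, ?_⟩
      have h1 := mem_one.1 hu.2
      rw [map_mul, Module.End.mul_apply] at h1
      rw [SetLike.mem_coe, mem_one, map_mul, Module.End.mul_apply]
      change A (B (A u)) = A u
      rw [← hAB u hu.1]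
      change A (B u) = u at h1
      rw [h1]) (fun u hu => hsq a₁ ha1 u hu.1)
    have e1 : (W ⊓ es (ρ (a₁ * a₂)) 1) ⊓ es A 1 = pp := by
      ext u
      constructor
      · rintro ⟨⟨h1, h2'⟩, h3⟩
        refine ⟨⟨h1, h3⟩, ?_⟩
        rw [SetLike.mem_coe, mem_one] at h2' h3 ⊢
        rw [map_mul, Module.End.mul_apply] at h2'
        change A (B u) = u at h2'
        rw [hAB u h1] at h2'
        rwa [h3] at h2'
      · rintro ⟨⟨h1, h3⟩, h4⟩
        refine ⟨⟨h1, ?_⟩, h3⟩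
        rw [SetLike.mem_coe, mem_one] at h4 h3 ⊢
        rw [map_mul, Module.End.mul_apply]
        change A (B u) = u
        rw [h4, h3]
    have e2 : (W ⊓ es (ρ (a₁ * a₂)) 1) ⊓ es A (-1) = mm := by
      ext u
      constructor
      · rintro ⟨⟨h1, h2'⟩, h3⟩
        refine ⟨⟨h1, h3⟩, ?_⟩
        rw [SetLike.mem_coe, mem_one] at h2'
        rw [SetLike.mem_coe, mem_neg] at h3 ⊢
        rw [map_mul, Module.End.mul_apply] at h2'
        change A (B u) = u at h2'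
        rw [hAB u h1, h3, map_neg] at h2'
        rw [← h2', neg_neg]
        exact congrArg B h2'
      · rintro ⟨⟨h1, h3⟩, h4⟩
        refine ⟨⟨h1, ?_⟩, h3⟩
        rw [SetLike.mem_coe, mem_neg] at h4 h3
        rw [SetLike.mem_coe, mem_one]
        rw [map_mul, Module.End.mul_apply]
        change A (B u) = u
        rw [h4, map_neg, h3, neg_neg]
    rw [e1, e2] at h
    exact h
  have t1 : finrank F ↥(W ⊓ es A 1) = ev (ρ a₁) 1 := by
    rw [inf_eq_right.2 (hleW a₁ ha1)]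
    rfl
  have t2 : finrank F ↥(W ⊓ es B 1) = ev (ρ a₂) 1 := by
    rw [inf_eq_right.2 (hleW a₂ ha2)]
    rfl
  have t3 : finrank F ↥(W ⊓ es (ρ (a₁ * a₂)) 1) = ev (ρ (a₁ * a₂)) 1 := by
    rw [inf_eq_right.2 (hleW _ ha3)]
    rfl
  have t0 : finrank F ↥W = 15 := hj
  have u1 := htab' a₁ ha1
  have u2 := htab' a₂ ha2
  have u3 := htab' _ ha3
  -- elements of order `r` commuting with `a₁`, `a₂`
  have hgen : ∀ y : G, y * a₁ = a₁ * y → y * a₂ = a₂ * y → y ^ r = 1 → ∀ u : V, (u ∈ pm ∨ u ∈ mp ∨ u ∈ mm) →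
      ρ y u = u := by
    intro y hy1 hy2 hyr
    have hyA : ∀ v : V, ρ y (A v) = A (ρ y v) := by
      intro v
      rw [hA, ← Module.End.mul_apply, ← map_mul, hy1, map_mul, Module.End.mul_apply]
    have hyB : ∀ v : V, ρ y (B v) = B (ρ y v) := by
      intro v
      rw [hB, ← Module.End.mul_apply, ← map_mul, hy2, map_mul, Module.End.mul_apply]
    have hyW : ∀ w ∈ W, ρ y w ∈ W := by
      intro w hw
      rw [hW, mem_one, ← ha1, map_mul, Module.End.mul_apply]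
      change A (A (ρ y w)) = ρ y w
      rw [← hyA, ← hyA]
      exact congrArg (ρ y) (hsq a₁ ha1 w hw)
    have hyr' : ∀ u : V, (ρ y ^ r) u = u := by
      intro u
      rw [← map_pow, hyr, map_one]
      rfl
    rintro u (hu | hu | hu)
    · refine small hr h6 pm (ρ y) ?_ (fun u _ => hyr' u) (by omega) u hu
      rintro v ⟨⟨h1, h3⟩, h4⟩
      rw [SetLike.mem_coe, mem_one] at h3
      rw [SetLike.mem_coe, mem_neg] at h4
      refine ⟨⟨hyW v h1, ?_⟩, ?_⟩
      · rw [SetLike.mem_coe, mem_one, ← hyA, h3]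
      · rw [SetLike.mem_coe, mem_neg, ← hyB, h4, map_neg]
    · refine small hr h6 mp (ρ y) ?_ (fun u _ => hyr' u) (by omega) u hu
      rintro v ⟨⟨h1, h3⟩, h4⟩
      rw [SetLike.mem_coe, mem_neg] at h3
      rw [SetLike.mem_coe, mem_one] at h4
      refine ⟨⟨hyW v h1, ?_⟩, ?_⟩
      · rw [SetLike.mem_coe, mem_neg, ← hyA, h3, map_neg]
      · rw [SetLike.mem_coe, mem_one, ← hyB, h4]
    · refine small hr h6 mm (ρ y) ?_ (fun u _ => hyr' u) (by omega) u hu
      rintro v ⟨⟨h1, h3⟩, h4⟩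
      rw [SetLike.mem_coe, mem_neg] at h3
      rw [SetLike.mem_coe, mem_neg] at h4
      refine ⟨⟨hyW v h1, ?_⟩, ?_⟩
      · rw [SetLike.mem_coe, mem_neg, ← hyA, h3, map_neg]
      · rw [SetLike.mem_coe, mem_neg, ← hyB, h4, map_neg]
  -- the elements of the closure
  have hcl : ∀ b ∈ Subgroup.closure {y : G | y * a₁ = a₁ * y ∧ y * a₂ = a₂ * y ∧ y ^ r = 1},
      (b * a₁ = a₁ * b ∧ b * a₂ = a₂ * b) ∧ ∀ u : V, (u ∈ pm ∨ u ∈ mp ∨ u ∈ mm) → ρ b u = u := by
    intro b hb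
    induction hb using Subgroup.closure_induction with
    | mem y hy => exact ⟨⟨hy.1, hy.2.1⟩, hgen y hy.1 hy.2.1 hy.2.2⟩
    | one => exact ⟨⟨by rw [one_mul, mul_one], by rw [one_mul, mul_one]⟩, fun u _ => by rw [map_one]; rfl⟩
    | mul x y _ _ hx hy =>
      refine ⟨⟨?_, ?_⟩, fun u hu => ?_⟩
      · rw [mul_assoc, hy.1.1, ← mul_assoc, hx.1.1, mul_assoc]
      · rw [mul_assoc, hy.1.2, ← mul_assoc, hx.1.2, mul_assoc]
      · rw [map_mul, Module.End.mul_apply, hy.2 u hu, hx.2 u hu]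
    | inv x _ hx =>
      refine ⟨⟨?_, ?_⟩, fun u hu => ?_⟩
      · rw [inv_mul_eq_iff_eq_mul, ← mul_assoc, hx.1.1, mul_assoc, mul_inv_cancel, mul_one]
      · rw [inv_mul_eq_iff_eq_mul, ← mul_assoc, hx.1.2, mul_assoc, mul_inv_cancel, mul_one]
      · have h1 : ρ x⁻¹ (ρ x u) = u := by
          rw [← Module.End.mul_apply, ← map_mul, inv_mul_cancel, map_one]
          rfl
        rw [hx.2 u hu] at h1
        exact h1
  -- dimension of the fixed space of such an element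
  have hkey : ∀ b : G, b * b = j → (b * a₁ = a₁ * b ∧ b * a₂ = a₂ * b) →
      (∀ u : V, (u ∈ pm ∨ u ∈ mp ∨ u ∈ mm) → ρ b u = u) →
      ev (ρ b) 1 = finrank F ↥(pp ⊓ es (ρ b) 1) + (finrank F ↥pm + (finrank F ↥mp + finrank F ↥mm)) := by
    intro b hb hcom htriv
    have hbA : ∀ v : V, ρ b (A v) = A (ρ b v) := by
      intro v
      rw [hA, ← Module.End.mul_apply, ← map_mul, hcom.1, map_mul, Module.End.mul_apply]
    have hbB : ∀ v : V, ρ b (B v) = B (ρ b v) := by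
      intro v
      rw [hB, ← Module.End.mul_apply, ← map_mul, hcom.2, map_mul, Module.End.mul_apply]
    set E := es (ρ b) 1 with hE
    have hEW : E ≤ W := hleW b hb
    have r1 : finrank F ↥(E ⊓ es A 1) + finrank F ↥(E ⊓ es A (-1)) = finrank F ↥E := by
      refine split h2 E A ?_ (fun u hu => hsq a₁ ha1 u (hEW hu))
      intro u hu
      rw [hE, mem_one, hbA, mem_one.1 hu]
    have r2 : finrank F ↥((E ⊓ es A 1) ⊓ es B 1) + finrank F ↥((E ⊓ es A 1) ⊓ es B (-1)) =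
        finrank F ↥(E ⊓ es A 1) := by
      refine split h2 (E ⊓ es A 1) B ?_ (fun u hu => hsq a₂ ha2 u (hEW hu.1))
      intro u hu
      refine ⟨?_, ?_⟩
      · rw [SetLike.mem_coe, hE, mem_one, hbB, mem_one.1 hu.1]
      · rw [SetLike.mem_coe, mem_one, hAB u (hEW hu.1), mem_one.1 hu.2]
    have r3 : finrank F ↥((E ⊓ es A (-1)) ⊓ es B 1) + finrank F ↥((E ⊓ es A (-1)) ⊓ es B (-1)) =
        finrank F ↥(E ⊓ es A (-1)) := by
      refine split h2 (E ⊓ es A (-1)) B ?_ (fun u hu => hsq a₂ ha2 u (hEW hu.1))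
      intro u hu
      refine ⟨?_, ?_⟩
      · rw [SetLike.mem_coe, hE, mem_one, hbB, mem_one.1 hu.1]
      · rw [SetLike.mem_coe, mem_neg, hAB u (hEW hu.1), mem_neg.1 hu.2, map_neg]
    have q1 : (E ⊓ es A 1) ⊓ es B 1 = pp ⊓ E := by
      ext u
      constructor
      · rintro ⟨⟨h1, h3⟩, h4⟩
        exact ⟨⟨⟨hEW h1, h3⟩, h4⟩, h1⟩
      · rintro ⟨⟨⟨_, h3⟩, h4⟩, h1⟩
        exact ⟨⟨h1, h3⟩, h4⟩
    have q2 : (E ⊓ es A 1) ⊓ es B (-1) = pm := by
      ext u
      constructor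
      · rintro ⟨⟨h1, h3⟩, h4⟩
        exact ⟨⟨hEW h1, h3⟩, h4⟩
      · rintro ⟨⟨h1, h3⟩, h4⟩
        refine ⟨⟨?_, h3⟩, h4⟩
        rw [SetLike.mem_coe, hE, mem_one]
        exact htriv u (Or.inl ⟨⟨h1, h3⟩, h4⟩)
    have q3 : (E ⊓ es A (-1)) ⊓ es B 1 = mp := by
      ext u
      constructor
      · rintro ⟨⟨h1, h3⟩, h4⟩
        exact ⟨⟨hEW h1, h3⟩, h4⟩
      · rintro ⟨⟨h1, h3⟩, h4⟩
        refine ⟨⟨?_, h3⟩, h4⟩
        rw [SetLike.mem_coe, hE, mem_one]
        exact htriv u (Or.inr (Or.inl ⟨⟨h1, h3⟩, h4⟩))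
    have q4 : (E ⊓ es A (-1)) ⊓ es B (-1) = mm := by
      ext u
      constructor
      · rintro ⟨⟨h1, h3⟩, h4⟩
        exact ⟨⟨hEW h1, h3⟩, h4⟩
      · rintro ⟨⟨h1, h3⟩, h4⟩
        refine ⟨⟨?_, h3⟩, h4⟩
        rw [SetLike.mem_coe, hE, mem_one]
        exact htriv u (Or.inr (Or.inr ⟨⟨h1, h3⟩, h4⟩))
    rw [q1, q2] at r2
    rw [q3, q4] at r3
    change finrank F ↥E = _
    omega
  have hpb : ∀ b : G, b * b = j → (b * a₁ = a₁ * b ∧ b * a₂ = a₂ * b) →
      (∀ u : V, (u ∈ pm ∨ u ∈ mp ∨ u ∈ mm) → ρ b u = u) → ∀ u ∈ pp, ρ b u = -u := by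
    intro b hb hcom htriv
    have h1 := hkey b hb hcom htriv
    have h3 := htab' b hb
    have h4 : finrank F ↥(pp ⊓ es (ρ b) 1) = 0 := by omega
    have hbA : ∀ v : V, ρ b (A v) = A (ρ b v) := by
      intro v
      rw [hA, ← Module.End.mul_apply, ← map_mul, hcom.1, map_mul, Module.End.mul_apply]
    have hbB : ∀ v : V, ρ b (B v) = B (ρ b v) := by
      intro v
      rw [hB, ← Module.End.mul_apply, ← map_mul, hcom.2, map_mul, Module.End.mul_apply]
    have h5 := split h2 pp (ρ b) (by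
      rintro v ⟨⟨h1, h3⟩, h4⟩
      rw [SetLike.mem_coe, mem_one] at h3
      rw [SetLike.mem_coe, mem_one] at h4
      refine ⟨⟨hinW b hb v h1, ?_⟩, ?_⟩
      · rw [SetLike.mem_coe, mem_one, ← hbA, h3]
      · rw [SetLike.mem_coe, mem_one, ← hbB, h4]) (fun u hu => hsq b hb u hu.1.1)
    rw [h4, zero_add] at h5
    have h6' : pp ⊓ es (ρ b) (-1) = pp := Submodule.eq_of_le_of_finrank_eq inf_le_left h5
    intro u hu
    rw [← h6'] at hu
    exact mem_neg.1 hu.2
  obtain ⟨k1, k2⟩ := hcl b₁ hc1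
  obtain ⟨k1', k2'⟩ := hcl b₂ hc2
  have p1 := hpb b₁ hb1 k1 k2
  have p2 := hpb b₂ hb2 k1' k2'
  have k12 : (b₁ * b₂) * a₁ = a₁ * (b₁ * b₂) ∧ (b₁ * b₂) * a₂ = a₂ * (b₁ * b₂) := by
    constructor
    · rw [mul_assoc, k1'.1, ← mul_assoc, k1.1, mul_assoc]
    · rw [mul_assoc, k1'.2, ← mul_assoc, k1.2, mul_assoc]
  have k3 : ∀ u : V, (u ∈ pm ∨ u ∈ mp ∨ u ∈ mm) → ρ (b₁ * b₂) u = u := by
    intro u hu
    rw [map_mul, Module.End.mul_apply, k2' u hu, k2 u hu]
  have p3 := hkey (b₁ * b₂) hb3 k12 k3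
  have p4 : pp ⊓ es (ρ (b₁ * b₂)) 1 = pp := by
    rw [inf_eq_left]
    intro u hu
    rw [mem_one, map_mul, Module.End.mul_apply, p2 u hu, map_neg, p1 u hu, neg_neg]
  rw [p4] at p3
  have p5 := htab' _ hb3
  omega

end quat

end Cfsg.Agent.H52.F4Odd
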