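import Cfsg.Agent.H52.F4Odd.Three
import Cfsg.Agent.H52.F4Odd.Lin
import Cfsg.Agent.H952.F4.Eig
import Cfsg.Agent.H952.F4.FixV

/-!
# S3938, row `F₄(q)`, `q` odd (helper52): the facts on the 27-dimensional module used in the uniqueness
-/

set_option autoImplicit false

namespace Cfsg.Agent.H52.F4Odd

open Cfsg Cfsg.Lie Module
open Cfsg.Agent.ChevalleyStructure Cfsg.Agent.ChevalleyStructure.Elts
open Cfsg.Agent.ChevalleyStructure.E6Min.Tables Cfsg.Agent.ChevalleyStructure.E6Min.Basic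
open Cfsg.Agent.GpExc.Field (emb)
open Cfsg.Agent.H952.F4

universe u

/-- the facts on the module -/
structure JF {F V G : Type*} [Field F] [AddCommGroup V] [Module F V] [Group G] (r : ℕ) (σ : Representation F G V) :
    Prop where
  three : ∀ s : G, s ≠ 1 → s ^ r = 1 → ev (σ s) 1 = 3
  two : ∀ x : G, x ≠ 1 → x * x = 1 → ev (σ x) 1 = 15 ∨ ev (σ x) 1 = 11
  four : ∀ x : G, x * x ≠ 1 → x ^ 4 = 1 → ev (σ (x * x)) 1 = 15 →
    ev (σ x) 1 = 7 ∨ ev (σ x) 1 = 9 ∨ ev (σ x) 1 = 15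
  inv : ∀ s j : G, s ≠ 1 → s ^ r = 1 → j * j = 1 → j * s * j⁻¹ = s⁻¹ →
    12 ≤ ev (σ j) 1 ∧ (ev (σ j) 1 = 15 → es (σ s) 1 ≤ es (σ j) 1)
  quad : ∀ s g : G, s ≠ 1 → s ^ r = 1 → g ^ 4 = 1 → ∀ a : ℕ, g * s * g⁻¹ = s ^ a → orderOf (a : ZMod r) = 4 →
    ev (σ g) 1 ≤ 9

theorem JF.comp {F V G H : Type*} [Field F] [AddCommGroup V] [Module F V] [Group G] [Group H] {r : ℕ}
    {σ : Representation F G V} (h : JF r σ) (φ : H →* G) (hφ : Function.Injective φ) :
    JF r (σ.comp φ : Representation F H V) := by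
  have ne : ∀ {x : H}, x ≠ 1 → φ x ≠ 1 := fun hx h' => hx (hφ (by rw [h', map_one]))
  have e : ∀ x : H, (σ.comp φ : Representation F H V) x = σ (φ x) := fun _ => rfl
  refine ⟨?_, ?_, ?_, ?_, ?_⟩
  · intro s hs hsr
    rw [e]
    exact h.three _ (ne hs) (by rw [← map_pow, hsr, map_one])
  · intro x hx hxx
    rw [e]
    exact h.two _ (ne hx) (by rw [← map_mul, hxx, map_one])
  · intro x hx hx4 h15
    rw [e, map_mul] at h15
    rw [e]
    exact h.four _ (by rw [← map_mul]; exact ne hx) (by rw [← map_pow, hx4, map_one]) h15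
  · intro s j hs hsr hj hjs
    rw [e, e]
    exact h.inv _ _ (ne hs) (by rw [← map_pow, hsr, map_one]) (by rw [← map_mul, hj, map_one])
      (by rw [← map_inv, ← map_inv, ← map_mul, ← map_mul, hjs])
  · intro s g hs hsr hg a ha h4
    rw [e]
    exact h.quad _ _ (ne hs) (by rw [← map_pow, hsr, map_one]) (by rw [← map_pow, hg, map_one]) a
      (by rw [← map_inv, ← map_mul, ← map_mul, ha, map_pow]) h4

section main

variable {F : Type u} [Field F] [Finite F] {ρ : ↥(chevF4.group F) →* GL I27 F}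

theorem finrank_J (K : Type u) [Field K] : finrank K (I27 → K) = 27 := by
  rw [Module.finrank_fintype_fun_eq_card]
  rfl

omit [Finite F] in
theorem two_ne {p : ℕ} [Fact p.Prime] [CharP F p] (hp2 : p ≠ 2) : (2 : F) ≠ 0 := by
  intro h
  have h1 : ((2 : ℕ) : F) = 0 := by exact_mod_cast h
  rw [CharP.cast_eq_zero_iff F p] at h1
  exact hp2 ((Nat.prime_dvd_prime_iff_eq Fact.out Nat.prime_two).1 h1)

/-- **The facts hold.** -/
theorem jf (p : ℕ) [Fact p.Prime] [CharP F p] (hp2 : p ≠ 2) (hρ : IsJ ρ) {r : ℕ} (hr : r.Prime)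
    (h12 : orderOf ((Nat.card F : ℕ) : ZMod r) = 12) : JF r (JK ρ) := by
  classical
  have hrf : Fact r.Prime := ⟨hr⟩
  have := Fintype.ofFinite F
  have T := Tor.tab_finite p hρ
  have hr2 : r ≠ 2 := by
    rintro rfl
    have h1 := orderOf_dvd_card (x := (ZMod.unitOfCoprime (Nat.card F) (by
      rw [Nat.coprime_comm, Nat.Prime.coprime_iff_not_dvd Nat.prime_two]
      intro h
      rw [(ZMod.natCast_eq_zero_iff _ _).2 h, orderOf_zero] at h12
      omega) : (ZMod 2)ˣ))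
    rw [← orderOf_units, ZMod.coe_unitOfCoprime, h12, ZMod.card_units_eq_totient] at h1
    have h2 : Nat.totient 2 = 1 := rfl
    rw [h2] at h1
    omega
  set K := AlgebraicClosure F with hKdef
  have hch : CharP K p := charP_of_injective_algebraMap (algebraMap F K).injective p
  set f : F →+* K := algebraMap F K with hf
  obtain ⟨ρ', hρ'⟩ := JMod.exists_isJ K
  have inj : Function.Injective (emb hF4 f) := Cfsg.Agent.GpExc.Field.emb_injective hF4 f
  have eJ1 : ∀ x, ev (JK ρ' (emb hF4 f x)) 1 = ev (JK ρ x) 1 := fun x => by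
    rw [← Chg.ev_J f hρ hρ', map_one]
  have hrK : ((r : ℕ) : K) ≠ 0 := by
    intro h
    rw [CharP.cast_eq_zero_iff K p, Nat.prime_dvd_prime_iff_eq Fact.out hr] at h
    obtain ⟨n, _, hn⟩ := FiniteField.card F p
    rw [← Nat.card_eq_fintype_card] at hn
    rw [← h, hn, Nat.cast_pow, CharP.cast_eq_zero, zero_pow n.pos.ne', orderOf_zero] at h12
    omega
  have three : ∀ s : ↥(chevF4.group F), s ≠ 1 → s ^ r = 1 → ev (JK ρ s) 1 = 3 :=
    fun s hs hsr => ev_three p hρ hr h12 hs hsr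
  refine ⟨three, ?_, ?_, ?_, ?_⟩
  · intro x hx hxx
    rcases T.two hp2 x hx hxx with h | h
    · exact Or.inl h.1
    · exact Or.inr h.1
  · intro x hx hx4 h15
    rcases T.four hp2 x hx hx4 with h | h | h | h | h
    · rw [h.1] at h15; omega
    · rw [h.1] at h15; omega
    · exact Or.inl h.2.2.1
    · exact Or.inr (Or.inl h.2.2.1)
    · exact Or.inr (Or.inr h.2.2.1)
  · intro s j hs hsr hj hjs
    have hcast : (((r - 1 : ℕ) : ℕ) : ZMod r) = -1 := by
      rw [Nat.cast_sub hr.one_lt.le, ZMod.natCast_self, Nat.cast_one, zero_sub]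
    have hord : orderOf (((r - 1 : ℕ) : ℕ) : ZMod r) = 2 := by
      rw [hcast, orderOf_neg_one, if_neg]
      rw [ZMod.ringChar_zmod_n]
      exact hr2
    have hspow : s ^ (r - 1) = s⁻¹ := by
      rw [eq_inv_iff_mul_eq_one, ← pow_succ, Nat.sub_add_cancel hr.one_lt.le, hsr]
    have h1 := Eig.frob ((JK ρ').comp (emb hF4 f) : Representation K ↥(chevF4.group F) (I27 → K)) hr hrK
      (z := s) (y := j) (a := r - 1) (k := 2) hsr (by rw [hjs, hspow]) hord (by norm_num) (by rw [pow_two, hj])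
      (μ := 1) (one_pow _)
    change 2 * ev (JK ρ' (emb hF4 f j)) 1 + ev (JK ρ' (emb hF4 f s)) 1 =
      2 * finrank K ↥(es (JK ρ' (emb hF4 f s)) 1 ⊓ es (JK ρ' (emb hF4 f j)) 1) + finrank K (I27 → K) at h1
    rw [eJ1, eJ1, three s hs hsr, finrank_J] at h1
    refine ⟨by omega, ?_⟩
    intro h15 v hv
    have h3 : finrank K ↥(es (JK ρ' (emb hF4 f s)) 1 ⊓ es (JK ρ' (emb hF4 f j)) 1) =
        finrank K ↥(es (JK ρ' (emb hF4 f s)) 1) := by
      have h4 : finrank K ↥(es (JK ρ' (emb hF4 f s)) 1) = 3 := by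
        rw [← three s hs hsr, ← eJ1]
        rfl
      omega
    have h4 := Submodule.eq_of_le_of_finrank_eq inf_le_left h3
    have hm : ∀ (g : ↥(chevF4.group F)) (w : I27 → F), JK ρ' (emb hF4 f g) (f ∘ w) = f ∘ (JK ρ g w) := by
      intro g w
      rw [FixV.JK_apply, FixV.JK_apply, H815.F4Chg.J_map f hρ hρ' g]
      ext i
      simp [Matrix.mulVec, dotProduct, map_sum]
    have h5 : f ∘ v ∈ es (JK ρ' (emb hF4 f s)) 1 := by
      rw [mem_one, hm, mem_one.1 hv]
    rw [← h4] at h5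
    have h6 := mem_one.1 h5.2
    rw [hm] at h6
    rw [mem_one]
    funext i
    exact f.injective (congrFun h6 i)
  · intro s g hs hsr hg a ha h4
    have h1 := Eig.frob ((JK ρ').comp (emb hF4 f) : Representation K ↥(chevF4.group F) (I27 → K)) hr hrK
      (z := s) (y := g) (a := a) (k := 4) hsr ha h4 (by norm_num) hg (μ := 1) (one_pow _)
    change 4 * ev (JK ρ' (emb hF4 f g)) 1 + ev (JK ρ' (emb hF4 f s)) 1 =
      4 * finrank K ↥(es (JK ρ' (emb hF4 f s)) 1 ⊓ es (JK ρ' (emb hF4 f g)) 1) + finrank K (I27 → K) at h1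
    rw [eJ1, eJ1, three s hs hsr, finrank_J] at h1
    have h3 : finrank K ↥(es (JK ρ' (emb hF4 f s)) 1 ⊓ es (JK ρ' (emb hF4 f g)) 1) ≤ 3 := by
      have h4 : finrank K ↥(es (JK ρ' (emb hF4 f s)) 1) = 3 := by
        rw [← three s hs hsr, ← eJ1]
        rfl
      rw [← h4]
      exact Submodule.finrank_mono inf_le_left
    omega


omit [Finite F] in
theorem fixed (hρ : IsJ ρ) (U : Submodule F (I27 → F)) (hU : ∀ g : ↥(chevF4.group F), ∀ v ∈ U, JK ρ g v = v) :
    finrank F ↥U ≤ 1 := by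
  have h1 : U ≤ Submodule.span F {u0 F} := by
    intro v hv
    have h2 := FixV.eq_smul_u0 v fun r hr j _ => by
      have h3 := hU (FixL.xg ⟨r, hr⟩ 1) v hv
      rw [FixV.JK_xg hρ] at h3
      rw [h3]
    rw [h2]
    exact Submodule.smul_mem _ _ (Submodule.mem_span_singleton_self _)
  refine (Submodule.finrank_mono h1).trans ?_
  exact (finrank_span_le_card _).trans (by simp)

end main

end Cfsg.Agent.H52.F4Odd
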