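import Cfsg.Agent.H952.F4.Tab

/-!
# S3938, row `F₄(q)`, `q` odd (helper52): elements of prime order `r` with `q` of order 12 modulo `r` have a
3-dimensional fixed space on the 27-dimensional module
-/

set_option autoImplicit false

namespace Cfsg.Agent.H52.F4Odd

open Cfsg Cfsg.Lie Module
open Cfsg.Agent.ChevalleyStructure Cfsg.Agent.ChevalleyStructure.Elts
open Cfsg.Agent.ChevalleyStructure.E6Min.Tables Cfsg.Agent.ChevalleyStructure.E6Min.Basic
open Cfsg.Agent.GpExc.Field (emb)
open Cfsg.Agent.H952.F4 Cfsg.Agent.H952.F4.TabNum Cfsg.Agent.H952.F4.TabLin Cfsg.Agent.H952.F4.TabMult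

universe u

/-- the row with number `n` -/
def rwj (n : ℕ) : ℕ × ℕ × ℕ × ℕ := rowsJ.getD n (8, 8, 8, 8)

/-- the row is zero -/
def isz (n : ℕ) : Bool := n == 0 || n == 4 || n == 8

/-- `c = a + b` (with the shift by 8) -/
def addR (a b c : ℕ × ℕ × ℕ × ℕ) : Bool :=
  (a.1 + b.1 == c.1 + 8) && (a.2.1 + b.2.1 == c.2.1 + 8) && (a.2.2.1 + b.2.2.1 == c.2.2.1 + 8) &&
    (a.2.2.2 + b.2.2.2 == c.2.2.2 + 8)

/-- there is a root `u ≠ s`, `u = s ± z` -/
def nb (z s : ℕ) : Bool := (List.range 27).any fun u => !(u == s) &&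
  (addR (rwj s) (rwj z) (rwj u) || addR (rwj u) (rwj z) (rwj s))

theorem chk_path : allLT (fun z => allLT (fun s => isz z || isz s ||
    (List.range 27).any (fun w => nb z w && nb w s)) 27) 27 = true := by
  decide +kernel

theorem chk_simple : allLT (fun i => (List.range 27).any fun s => (List.range 27).any fun t =>
    addR (rwj s) (rwj t) ([(9, 8, 8, 8), (8, 9, 8, 8), (8, 8, 9, 8), (8, 8, 8, 9)].getD i (8, 8, 8, 8))) 4 = true := by
  decide +kernel

theorem addR_spec {a b c : ℕ × ℕ × ℕ × ℕ} (h : addR a b c = true) {K : Type*} [Field K] (z : Kˣ) (e : Fin 4 → ℕ) :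
    val z e a * val z e b = val z e c := by
  unfold addR at h
  simp only [Bool.and_eq_true, beq_iff_eq] at h
  obtain ⟨⟨⟨h1, h2⟩, h3⟩, h4⟩ := h
  unfold val
  rw [← zpow_add]
  congr 1
  have e1 : (a.1 : ℤ) + b.1 = c.1 + 8 := by exact_mod_cast h1
  have e2 : (a.2.1 : ℤ) + b.2.1 = c.2.1 + 8 := by exact_mod_cast h2
  have e3 : (a.2.2.1 : ℤ) + b.2.2.1 = c.2.2.1 + 8 := by exact_mod_cast h3
  have e4 : (a.2.2.2 : ℤ) + b.2.2.2 = c.2.2.2 + 8 := by exact_mod_cast h4
  linear_combination (e 0 : ℤ) * e1 + (e 1 : ℤ) * e2 + (e 2 : ℤ) * e3 + (e 3 : ℤ) * e4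

section comb

variable {K : Type*} [Field K] (z : Kˣ) (a : Fin 4 → ℕ)

/-- the value at `n` -/
def wv (n : Fin 27) : Kˣ := val z a (rwj n)

variable {z a}

theorem wv_nb (hinj : ∀ m n : Fin 27, m ≠ n → wv z a m = wv z a n → wv z a m = 1) {m s : Fin 27}
    (hm : wv z a m = 1) (h : nb m s = true) : wv z a s = 1 := by
  unfold nb at h
  rw [List.any_eq_true] at h
  obtain ⟨u, hu, h⟩ := h
  rw [List.mem_range] at hu
  rw [Bool.and_eq_true, Bool.or_eq_true, Bool.not_eq_true', beq_eq_false_iff_ne] at h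
  obtain ⟨hne, h⟩ := h
  have hne' : s ≠ ⟨u, hu⟩ := fun h' => hne (by rw [h'])
  have e : wv z a s = wv z a ⟨u, hu⟩ := by
    rcases h with h | h
    · have := addR_spec h z a
      change wv z a s * wv z a m = wv z a ⟨u, hu⟩ at this
      rw [← this, hm, mul_one]
    · have := addR_spec h z a
      change wv z a ⟨u, hu⟩ * wv z a m = wv z a s at this
      rw [← this, hm, mul_one]
  exact hinj s ⟨u, hu⟩ hne' e

theorem wv_all (hinj : ∀ m n : Fin 27, m ≠ n → wv z a m = wv z a n → wv z a m = 1) {m : Fin 27}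
    (hz : isz m = false) (hm : wv z a m = 1) (s : Fin 27) (hs : isz s = false) : wv z a s = 1 := by
  have h1 := allLT_spec (allLT_spec chk_path m m.2) s s.2
  simp only [hz, hs, Bool.false_or] at h1
  rw [List.any_eq_true] at h1
  obtain ⟨w, hw, h1⟩ := h1
  rw [List.mem_range] at hw
  rw [Bool.and_eq_true] at h1
  have h2 : wv z a ⟨w, hw⟩ = 1 := wv_nb hinj hm h1.1
  exact wv_nb hinj h2 h1.2

theorem wv_isz {s : Fin 27} (hs : isz s = true) : wv z a s = 1 := by
  have h : rwj s = (8, 8, 8, 8) := by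
    unfold isz at hs
    simp only [Bool.or_eq_true, beq_iff_eq] at hs
    rcases hs with (h | h) | h <;> rw [h] <;> rfl
  unfold wv
  rw [h]
  unfold val
  simp

theorem wv_simple (h : ∀ s : Fin 27, wv z a s = 1) (i : Fin 4) : z ^ a i = 1 := by
  have h1 := allLT_spec chk_simple i i.2
  rw [List.any_eq_true] at h1
  obtain ⟨s, hs, h1⟩ := h1
  rw [List.any_eq_true] at h1
  obtain ⟨t, ht, h1⟩ := h1
  rw [List.mem_range] at hs ht
  have h2 := addR_spec h1 z a
  have e1 : val z a (rwj s) = 1 := h ⟨s, hs⟩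
  have e2 : val z a (rwj t) = 1 := h ⟨t, ht⟩
  rw [e1, e2, mul_one] at h2
  have key : val z a ([(9, 8, 8, 8), (8, 9, 8, 8), (8, 8, 9, 8), (8, 8, 8, 9)].getD i (8, 8, 8, 8)) = z ^ a i := by
    fin_cases i <;> simp [val]
  rw [← key, ← h2]

/-- powers -/
theorem exists_pow_wv {m : ℕ} (hm0 : 0 < m) (hz : orderOf z = m) (n : Fin 27) : ∃ j : ℕ, wv z a n = z ^ j := by
  have hfin : IsOfFinOrder z := orderOf_pos_iff.1 (by rw [hz]; exact hm0)
  have : wv z a n ∈ Subgroup.zpowers z := by
    unfold wv val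
    exact Subgroup.zpow_mem_zpowers _ _
  have h2 := (hfin.mem_powers_iff_mem_zpowers).2 this
  obtain ⟨j, hj⟩ := Submonoid.mem_powers_iff _ _ |>.1 h2
  exact ⟨j, hj.symm⟩

omit z a in
theorem count_contra {M : Type*} [One M] [DecidableEq M] (w : Fin 27 → M) (S : Finset M) (hS : S.card = 12)
    (h1S : (1 : M) ∉ S) (h2 : ∀ μ ∈ S, 2 ≤ (Finset.univ.filter fun n : Fin 27 => w n = μ).card)
    (h4 : 4 ≤ (Finset.univ.filter fun n : Fin 27 => w n = 1).card) : False := by
  have h5 : ((Finset.univ : Finset (Fin 27)).filter fun n => w n ∈ insert 1 S).card =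
      ∑ μ ∈ insert 1 S, (Finset.univ.filter fun n : Fin 27 => w n = μ).card := by
    rw [Finset.card_eq_sum_card_fiberwise (f := w) (t := insert 1 S)]
    · refine Finset.sum_congr rfl fun μ hμ => ?_
      congr 1
      ext n
      rw [Finset.mem_filter, Finset.mem_filter, Finset.mem_filter]
      constructor
      · exact fun h => ⟨h.1.1, h.2⟩
      · exact fun h => ⟨⟨h.1, by rw [h.2]; exact hμ⟩, h.2⟩
    · intro n hn
      rw [Finset.mem_coe, Finset.mem_filter] at hn
      exact hn.2
  rw [Finset.sum_insert h1S] at h5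
  have h6 : 24 ≤ ∑ μ ∈ S, (Finset.univ.filter fun n : Fin 27 => w n = μ).card := by
    have : ∑ μ ∈ S, 2 ≤ ∑ μ ∈ S, (Finset.univ.filter fun n : Fin 27 => w n = μ).card :=
      Finset.sum_le_sum fun μ hμ => h2 μ hμ
    rw [Finset.sum_const, hS, smul_eq_mul] at this
    exact this
  have h7 : ((Finset.univ : Finset (Fin 27)).filter fun n => w n ∈ insert 1 S).card ≤ 27 := by
    have := Finset.card_filter_le (Finset.univ : Finset (Fin 27)) (fun n => w n ∈ insert 1 S)
    rwa [Finset.card_univ, Fintype.card_fin] at this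
  omega

/-- **The combinatorial part.** -/
theorem comb [DecidableEq K] {r q : ℕ} (hr : r.Prime) (hz : orderOf z = r) (h12 : orderOf (q : ZMod r) = 12)
    (hfr : ∀ j : ℕ, (Finset.univ.filter fun n : Fin 27 => wv z a n = z ^ (q * j)).card =
      (Finset.univ.filter fun n : Fin 27 => wv z a n = z ^ j).card) (hne : ∃ i, z ^ a i ≠ 1) :
    (Finset.univ.filter fun n : Fin 27 => wv z a n = 1).card = 3 := by
  have hrf : Fact r.Prime := ⟨hr⟩
  have hsub : (Finset.univ.filter fun n : Fin 27 => isz n = true) ⊆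
      (Finset.univ.filter fun n : Fin 27 => wv z a n = 1) := by
    intro n hn
    rw [Finset.mem_filter] at hn ⊢
    exact ⟨Finset.mem_univ _, wv_isz hn.2⟩
  have hc3 : (Finset.univ.filter fun n : Fin 27 => isz n = true).card = 3 := by decide
  by_contra hcon
  have h4 : 4 ≤ (Finset.univ.filter fun n : Fin 27 => wv z a n = 1).card := by
    have := Finset.card_le_card hsub
    omega
  have hex : ∃ n : Fin 27, isz n = false ∧ wv z a n = 1 := by
    by_contra hno
    push Not at hno
    have : (Finset.univ.filter fun n : Fin 27 => wv z a n = 1) ⊆ (Finset.univ.filter fun n : Fin 27 => isz n = true) := by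
      intro n hn
      rw [Finset.mem_filter] at hn ⊢
      refine ⟨Finset.mem_univ _, ?_⟩
      by_contra h
      exact hno n (Bool.not_eq_true _ ▸ h) hn.2
    have := Finset.card_le_card this
    omega
  obtain ⟨n, hn0, hn1⟩ := hex
  have hinj : ∀ m n : Fin 27, m ≠ n → wv z a m = wv z a n → wv z a m = 1 := by
    intro m n hmn hval
    by_contra hne1
    obtain ⟨j, hj⟩ := exists_pow_wv (a := a) hr.pos hz m
    have hrj : ¬ r ∣ j := by
      intro h
      apply hne1
      rw [hj, ← orderOf_dvd_iff_pow_eq_one, hz]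
      exact h
    have hN : ∀ i : ℕ, 2 ≤ (Finset.univ.filter fun n : Fin 27 => wv z a n = z ^ (q ^ i * j)).card := by
      intro i
      induction i with
      | zero =>
        rw [pow_zero, one_mul]
        have : ({m, n} : Finset (Fin 27)) ⊆ (Finset.univ.filter fun n : Fin 27 => wv z a n = z ^ j) := by
          intro x hx
          rw [Finset.mem_insert, Finset.mem_singleton] at hx
          rw [Finset.mem_filter]
          refine ⟨Finset.mem_univ _, ?_⟩
          rcases hx with rfl | rfl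
          · exact hj
          · rw [← hval]; exact hj
        have := Finset.card_le_card this
        rwa [Finset.card_pair hmn] at this
      | succ i ih =>
        rw [pow_succ', mul_assoc, hfr]
        exact ih
    have hjz : ((j : ℕ) : ZMod r) ≠ 0 := by
      rwa [Ne, ZMod.natCast_eq_zero_iff]
    have hq0 : (q : ZMod r) ≠ 0 := by
      intro h0
      rw [h0, orderOf_zero] at h12
      omega
    have hpowinj : Set.InjOn (fun i : ℕ => z ^ (q ^ i * j)) (Finset.range 12 : Finset ℕ) := by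
      intro i hi i' hi' h
      rw [Finset.coe_range, Set.mem_Iio] at hi hi'
      simp only at h
      rw [pow_eq_pow_iff_modEq, hz, ← ZMod.natCast_eq_natCast_iff, Nat.cast_mul, Nat.cast_mul, Nat.cast_pow,
        Nat.cast_pow] at h
      have h' := mul_right_cancel₀ hjz h
      exact pow_injOn_Iio_orderOf (by rw [h12]; exact hi) (by rw [h12]; exact hi') h'
    have hne1' : ∀ i, z ^ (q ^ i * j) ≠ 1 := by
      intro i h
      rw [← orderOf_dvd_iff_pow_eq_one, hz] at h
      rcases (Nat.Prime.dvd_mul hr).1 h with h | h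
      · have := hr.dvd_of_dvd_pow h
        exact hq0 ((ZMod.natCast_eq_zero_iff _ _).2 this)
      · exact hrj h
    have hS : ((Finset.range 12).image fun i : ℕ => z ^ (q ^ i * j)).card = 12 := by
      rw [Finset.card_image_of_injOn hpowinj, Finset.card_range]
    exact count_contra (fun n => wv z a n) _ hS (fun h => by
      obtain ⟨i, _, hi⟩ := Finset.mem_image.1 h
      exact hne1' i hi) (fun μ hμ => by
      obtain ⟨i, _, rfl⟩ := Finset.mem_image.1 hμ
      exact hN i) h4
  have hall : ∀ s : Fin 27, wv z a s = 1 := by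
    intro s
    cases hs : isz s with
    | true => exact wv_isz hs
    | false => exact wv_all hinj hn0 hn1 s hs
  obtain ⟨i, hi⟩ := hne
  exact hi (wv_simple hall i)

end comb

/-- number of indices -/
theorem card_fin {K : Type*} [Field K] [DecidableEq K] {z : Kˣ} {m : ℕ} (hz : orderOf z = m) (a : Fin 4 → ℕ) (j : ℕ) :
    (Finset.univ.filter fun n : Fin 27 => wv z a n = z ^ j).card = nn rowsJ m j (a 0) (a 1) (a 2) (a 3) := by
  unfold nn
  rw [cnt_eq, rowsJ_ofFn, countP_ofFn, Finset.card_filter]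
  refine Finset.sum_congr rfl fun n _ => ?_
  exact if_congr (val_eq_iff hz a _ j) rfl rfl

section main

variable {F : Type u} [Field F] {ρ : ↥(chevF4.group F) →* GL I27 F}

/-- invariance under the Frobenius automorphism -/
theorem ev_frob {K : Type u} [Field K] (f : F →+* K) {ρ' : ↥(chevF4.group K) →* GL I27 K} (hρ : IsJ ρ)
    (hρ' : IsJ ρ') (φ : K →+* K) (hφ : ∀ x, φ (f x) = f x) (s : ↥(chevF4.group F)) (μ : K) :
    ev (JK ρ' (emb hF4 f s)) (φ μ) = ev (JK ρ' (emb hF4 f s)) μ := by
  have h1 : JK ρ' (emb hF4 f s) = Matrix.toLin' (((ρ s : GL I27 F) : Matrix I27 I27 F).map f) := by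
    rw [← H815.F4Chg.J_map f hρ hρ' s]
    rfl
  have h2 := H815.F4Chg.ev_map φ (((ρ s : GL I27 F) : Matrix I27 I27 F).map f) μ
  have h3 : (((ρ s : GL I27 F) : Matrix I27 I27 F).map f).map φ = ((ρ s : GL I27 F) : Matrix I27 I27 F).map f := by
    ext i j
    simp only [Matrix.map_apply]
    exact hφ _
  rw [h3] at h2
  rw [h1]
  exact h2

/-- **The fixed space is 3-dimensional.** -/
theorem ev_three (p : ℕ) [Fact p.Prime] [Finite F] [CharP F p] (hρ : IsJ ρ) {r : ℕ} (hr : r.Prime)
    (h12 : orderOf ((Nat.card F : ℕ) : ZMod r) = 12) {s : ↥(chevF4.group F)} (hs1 : s ≠ 1) (hs : s ^ r = 1) :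
    ev (JK ρ s) 1 = 3 := by
  classical
  have hrf : Fact r.Prime := ⟨hr⟩
  have := Fintype.ofFinite F
  set K := AlgebraicClosure F with hKdef
  have hch : CharP K p := charP_of_injective_algebraMap (algebraMap F K).injective p
  have hK : BpExc.TorAll.HAlg p K := Cfsg.Agent.H944.RootVals.hAlg_closure p F
  set f : F →+* K := algebraMap F K with hf
  obtain ⟨ρ', hρ'⟩ := JMod.exists_isJ K
  obtain ⟨n, hp, hn⟩ := FiniteField.card F p
  rw [← Nat.card_eq_fintype_card] at hn
  have hrp : r.Coprime p := by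
    rw [Nat.coprime_primes hr hp]
    rintro rfl
    rw [hn, Nat.cast_pow, CharP.cast_eq_zero, zero_pow n.pos.ne', orderOf_zero] at h12
    omega
  obtain ⟨ζ, hζ, hmul⟩ := Tor.exists_root p hK hρ' hr.ne_zero hrp
  set X := emb hF4 f s with hX
  have hXr : X ^ r = 1 := by rw [hX, ← map_pow, hs, map_one]
  have hX1 : X ≠ 1 := fun h => hs1 (Cfsg.Agent.GpExc.Field.emb_injective hF4 f (by rw [← hX, h, map_one]))
  obtain ⟨a, ha⟩ := hmul X hXr
  have hζ0 : ζ ≠ 0 := hζ.ne_zero hr.ne_zero
  let z : Kˣ := Units.mk0 ζ hζ0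
  have hz : orderOf z = r := by rw [← orderOf_units]; exact hζ.eq_orderOf.symm
  have hcard : ∀ j : ℕ, (Finset.univ.filter fun n : Fin 27 => wv z a n = z ^ j).card = ev (JK ρ' X) (ζ ^ j) := by
    intro j
    rw [card_fin hz, ha.evJ]
  let φ : K →+* K := iterateFrobenius K p n
  have hφ : ∀ x, φ (f x) = f x := by
    intro x
    change (iterateFrobenius K p n) (f x) = f x
    rw [iterateFrobenius_def, ← map_pow, ← hn, Nat.card_eq_fintype_card, FiniteField.pow_card]
  have h1 := comb (z := z) (a := a) hr hz h12 (by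
    intro j
    rw [hcard, hcard]
    have := ev_frob f hρ hρ' φ hφ s (ζ ^ j)
    rw [← hX] at this
    rw [← this]
    congr 1
    change _ = (iterateFrobenius K p n) (ζ ^ j)
    rw [iterateFrobenius_def, ← hn, ← pow_mul, mul_comm]) (by
    by_contra hno
    push Not at hno
    refine hX1 ?_
    have := ha.ord 1 (fun i => by
      rw [one_mul, ← hz]
      exact orderOf_dvd_of_pow_eq_one (hno i))
    rwa [pow_one] at this)
  have h2 := hcard 0
  rw [pow_zero, pow_zero, h1] at h2
  have h3 := Chg.ev_J f hρ hρ' s 1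
  rw [map_one, ← hX, ← h2] at h3
  exact h3.symm

end main

end Cfsg.Agent.H52.F4Odd
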