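import Cfsg.Agent.H52.F4Odd.JF

/-!
# S3938, row `F₄(q)`, `q` odd (helper52): a simple overgroup `³D₄(q)` of the torus element acts trivially on the fixed
space of the elements of order `r`
-/

set_option autoImplicit false

namespace Cfsg.Agent.H52.F4Odd

open Module Cfsg.Agent.H952.F4

/-- the quaternion configuration in `³D₄(q)`: `j` inverts `x`, `a₁, a₂` and `b₁, b₂` generate commuting quaternion
groups with centre `⟨j⟩`, `b₁, b₂` lie in the group generated by the elements of order `l` commuting with `a₁, a₂`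
(`l` prime, `q` of order 6 modulo `l`) -/
structure Quat {G : Type*} [Group G] (q : ℕ) (x : G) : Prop where
  ex : ∃ j a₁ a₂ b₁ b₂ : G, j * x * j⁻¹ = x⁻¹ ∧ j * j = 1 ∧ j ≠ 1 ∧ a₁ * a₁ = j ∧ a₂ * a₂ = j ∧
    (a₁ * a₂) * (a₁ * a₂) = j ∧ b₁ * b₁ = j ∧ b₂ * b₂ = j ∧ (b₁ * b₂) * (b₁ * b₂) = j ∧
    ∀ l : ℕ, l.Prime → orderOf (q : ZMod l) = 6 →
      b₁ ∈ Subgroup.closure {y : G | y * a₁ = a₁ * y ∧ y * a₂ = a₂ * y ∧ y ^ l = 1} ∧
      b₂ ∈ Subgroup.closure {y : G | y * a₁ = a₁ * y ∧ y * a₂ = a₂ * y ∧ y ^ l = 1}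

section stab

variable {F V G : Type*} [Field F] [AddCommGroup V] [Module F V] [Group G] (σ : Representation F G V)

theorem inv_apply (g : G) (v : V) : σ g⁻¹ (σ g v) = v := by
  rw [← Module.End.mul_apply, ← map_mul, inv_mul_cancel, map_one, Module.End.one_apply]

theorem apply_inv (g : G) (v : V) : σ g (σ g⁻¹ v) = v := by
  rw [← Module.End.mul_apply, ← map_mul, mul_inv_cancel, map_one, Module.End.one_apply]

/-- the stabiliser of a subspace -/
def Stb (U : Submodule F V) : Subgroup G where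
  carrier := {g | (∀ v ∈ U, σ g v ∈ U) ∧ ∀ v ∈ U, σ g⁻¹ v ∈ U}
  mul_mem' := by
    rintro a b ⟨h1, h2⟩ ⟨h3, h4⟩
    refine ⟨fun v hv => ?_, fun v hv => ?_⟩
    · rw [map_mul, Module.End.mul_apply]
      exact h1 _ (h3 v hv)
    · rw [mul_inv_rev, map_mul, Module.End.mul_apply]
      exact h4 _ (h2 v hv)
  one_mem' := by
    refine ⟨fun v hv => ?_, fun v hv => ?_⟩
    · rw [map_one]; exact hv
    · rw [inv_one, map_one]; exact hv
  inv_mem' := by
    rintro a ⟨h1, h2⟩
    refine ⟨h2, fun v hv => ?_⟩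
    rw [inv_inv]
    exact h1 v hv

theorem mem_Stb {U : Submodule F V} {g : G} : g ∈ Stb σ U ↔ (∀ v ∈ U, σ g v ∈ U) ∧ ∀ v ∈ U, σ g⁻¹ v ∈ U := Iff.rfl

/-- the pointwise stabiliser of a subspace -/
def Ptw (U : Submodule F V) : Subgroup G where
  carrier := {g | ∀ v ∈ U, σ g v = v}
  mul_mem' := by
    intro a b h1 h3 v hv
    rw [map_mul, Module.End.mul_apply, h3 v hv, h1 v hv]
  one_mem' := by
    intro v hv
    rw [map_one]; rfl
  inv_mem' := by
    intro a h1 v hv
    have := inv_apply σ a v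
    rwa [h1 v hv] at this

theorem mem_Ptw {U : Submodule F V} {g : G} : g ∈ Ptw σ U ↔ ∀ v ∈ U, σ g v = v := Iff.rfl

theorem Ptw_le_Stb (U : Submodule F V) : Ptw σ U ≤ Stb σ U := by
  intro g hg
  have hg' := (Ptw σ U).inv_mem hg
  refine ⟨fun v hv => ?_, fun v hv => ?_⟩
  · rw [hg v hv]; exact hv
  · rw [hg' v hv]; exact hv

/-- if the whole (simple) group stabilises the subspace and a nontrivial element fixes it pointwise, then it is fixed
pointwise -/
theorem fixed_of_stab [IsSimpleGroup G] {U : Submodule F V} (h : Stb σ U = ⊤) {s : G} (hs1 : s ≠ 1)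
    (hs : s ∈ Ptw σ U) : Ptw σ U = ⊤ := by
  have hn : (Ptw σ U).Normal := by
    refine ⟨fun n hn g => ?_⟩
    intro v hv
    have hg : g ∈ Stb σ U := by rw [h]; trivial
    rw [map_mul, map_mul, Module.End.mul_apply, Module.End.mul_apply, hn _ (hg.2 v hv), apply_inv]
  rcases hn.eq_bot_or_eq_top with h1 | h1
  · rw [h1, Subgroup.mem_bot] at hs
    exact absurd hs hs1
  · exact h1

/-- an element normalising `⟨s⟩` stabilises the fixed space of `s` -/
theorem mem_Stb_of_norm {s g : G} (h1 : g⁻¹ * s * g ∈ Subgroup.zpowers s) (h2 : g * s * g⁻¹ ∈ Subgroup.zpowers s) :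
    g ∈ Stb σ (es (σ s) 1) := by
  have hz : ∀ z ∈ Subgroup.zpowers s, ∀ v ∈ es (σ s) 1, σ z v = v := by
    intro z hz
    have : Subgroup.zpowers s ≤ Ptw σ (es (σ s) 1) := by
      rw [Subgroup.zpowers_le]
      intro v hv
      exact mem_one.1 hv
    exact this hz
  refine ⟨fun v hv => ?_, fun v hv => ?_⟩
  · rw [mem_one]
    have e : s * g = g * (g⁻¹ * s * g) := by group
    rw [← Module.End.mul_apply, ← map_mul, e, map_mul, Module.End.mul_apply, hz _ h1 v hv]
  · rw [mem_one]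
    have e : s * g⁻¹ = g⁻¹ * (g * s * g⁻¹) := by group
    rw [← Module.End.mul_apply, ← map_mul, e, map_mul, Module.End.mul_apply, hz _ h2 v hv]

end stab

/-- conjugation and powers -/
theorem conj_zpowers {G : Type*} [Group G] {x g s : G} (hx : s ∈ Subgroup.zpowers x)
    (hg : g * x * g⁻¹ ∈ Subgroup.zpowers x) : g * s * g⁻¹ ∈ Subgroup.zpowers s := by
  obtain ⟨k, rfl⟩ := hx
  obtain ⟨m, hm⟩ := hg
  refine ⟨m, ?_⟩
  simp only at hm ⊢
  rw [← zpow_mul, mul_comm, zpow_mul, hm, conj_zpow]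

section main

variable {F V G : Type*} [Field F] [Finite F] [AddCommGroup V] [Module F V] [FiniteDimensional F V] [Group G]
  [Finite G] [IsSimpleGroup G] {σ : Representation F G V}

/-- **The main argument.** -/
theorem fix_of_quat (h2 : (2 : F) ≠ 0) {r : ℕ} (hr : r.Prime) (hr2 : r ≠ 2) (hσ : JF r σ) {l : ℕ} (hl : l.Prime)
    (h6 : orderOf ((Nat.card F : ℕ) : ZMod l) = 6) {x s : G} (hs1 : s ≠ 1) (hsr : s ^ r = 1)
    (hsx : s ∈ Subgroup.zpowers x)
    (hover : ∀ H : Subgroup G, x ∈ H → H ≠ ⊤ → H ≤ Subgroup.normalizer (Subgroup.zpowers x : Set G))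
    (hq : Quat (Nat.card F) x) : Ptw σ (es (σ s) 1) = ⊤ := by
  have hrf : Fact r.Prime := ⟨hr⟩
  obtain ⟨j, a₁, a₂, b₁, b₂, hjx, hj, hj1, ha1, ha2, ha3, hb1, hb2, hb3, hcl⟩ := hq.ex
  have hsord : orderOf s = r := orderOf_eq_prime hsr hs1
  have hjs : j * s * j⁻¹ = s⁻¹ := by
    obtain ⟨k, rfl⟩ := hsx
    simp only
    rw [← conj_zpow, hjx, inv_zpow]
  obtain ⟨h12, hle⟩ := hσ.inv s j hs1 hsr hj hjs
  have h15 : ev (σ j) 1 = 15 := by
    rcases hσ.two j hj1 hj with h | h
    · exact h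
    · omega
  have hK := hle h15
  obtain ⟨hc1, hc2⟩ := hcl l hl h6
  have hg4' : ∀ g : G, g * g = j → g ^ 4 = 1 := by
    intro g hg
    rw [show (4 : ℕ) = 2 * 2 from rfl, pow_mul, pow_two g, hg, pow_two, hj]
  obtain ⟨g, hg, hg15⟩ := exists_fifteen σ h2 ha1 ha2 ha3 hb1 hb2 hb3 hl h6 hc1 hc2 h15 (fun g hg =>
    hσ.four g (by rw [hg]; exact hj1) (hg4' g hg) (by rw [hg]; exact h15))
  have hgle : es (σ g) 1 ≤ es (σ j) 1 := by
    intro w hw
    rw [mem_one, ← hg, map_mul, Module.End.mul_apply, mem_one.1 hw, mem_one.1 hw]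
  have hgeq : es (σ g) 1 = es (σ j) 1 := Submodule.eq_of_le_of_finrank_eq hgle (by
    change ev (σ g) 1 = ev (σ j) 1
    rw [hg15, h15])
  have hgK : g ∈ Ptw σ (es (σ s) 1) := by
    intro v hv
    have := hK hv
    rw [← hgeq] at this
    exact mem_one.1 this
  have hgN : g * x * g⁻¹ ∉ Subgroup.zpowers x := by
    intro hgx
    have h1 := conj_zpowers hsx hgx
    have hfin : IsOfFinOrder s := isOfFinOrder_of_finite s
    rw [← hfin.mem_powers_iff_mem_zpowers] at h1
    obtain ⟨a, ha⟩ := h1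
    simp only at ha
    have h3 : s ^ (a * a) = s⁻¹ := by
      rw [pow_mul, ha, conj_pow, ha]
      have : g * (g * s * g⁻¹) * g⁻¹ = (g * g) * s * (g * g)⁻¹ := by group
      rw [this, hg, hjs]
    have h4 : ((a : ZMod r)) ^ 2 = -1 := by
      rw [eq_inv_iff_mul_eq_one, ← pow_succ, ← orderOf_dvd_iff_pow_eq_one, hsord,
        ← ZMod.natCast_eq_zero_iff] at h3
      push_cast at h3
      rw [pow_two]
      exact eq_neg_of_add_eq_zero_left h3
    have h5 : orderOf (a : ZMod r) = 4 := by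
      have h7 : (a : ZMod r) ^ 2 ≠ 1 := by
        rw [h4]
        intro h
        have h8 : ((2 : ℕ) : ZMod r) = 0 := by
          have : (2 : ZMod r) = 1 - (-1) := by ring
          push_cast
          rw [this, h, sub_self]
        rw [ZMod.natCast_eq_zero_iff] at h8
        exact hr2 ((Nat.prime_dvd_prime_iff_eq hr Nat.prime_two).1 h8)
      have h9 : (a : ZMod r) ^ (2 ^ (1 + 1)) = 1 := by
        have : (a : ZMod r) ^ (2 ^ (1 + 1)) = ((a : ZMod r) ^ 2) ^ 2 := by ring
        rw [this, h4]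
        ring
      have h10 := orderOf_eq_prime_pow (p := 2) (n := 1) (x := (a : ZMod r)) (by rwa [pow_one]) h9
      rw [h10]
      norm_num
    have h8 := hσ.quad s g hs1 hsr (hg4' g hg) a ha.symm h5
    omega
  have htop : Subgroup.closure ({x, g} : Set G) = ⊤ := by
    by_contra hne
    have h1 := hover _ (Subgroup.subset_closure (Set.mem_insert _ _)) hne
    have h3 := h1 (Subgroup.subset_closure (Set.mem_insert_of_mem _ rfl))
    rw [Subgroup.mem_normalizer_iff] at h3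
    exact hgN ((h3 x).1 (Subgroup.mem_zpowers x))
  refine fixed_of_stab σ ?_ hs1 (fun v hv => mem_one.1 hv)
  rw [eq_top_iff, ← htop, Subgroup.closure_le]
  rintro y (rfl | rfl)
  · refine mem_Stb_of_norm σ ?_ ?_
    · obtain ⟨k, rfl⟩ := hsx
      simp only
      have : y⁻¹ * y ^ k * y = y ^ k := by group
      rw [this]
      exact Subgroup.mem_zpowers _
    · obtain ⟨k, rfl⟩ := hsx
      simp only
      have : y * y ^ k * y⁻¹ = y ^ k := by group
      rw [this]
      exact Subgroup.mem_zpowers _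
  · exact Ptw_le_Stb σ _ hgK

end main

end Cfsg.Agent.H52.F4Odd
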